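import Cfsg.Agent.ExA.G
import Cfsg.Agent.Geom.E6c

/-! Alternating sections of the groups of type `E₆`. -/

set_option autoImplicit false

namespace CF.ExA

open Matrix hiding zpow_mul one_zpow zpow_sub
open Subgroup Function CF.BN CF.Chev Finset Equiv Equiv.Perm Multiplicative Cfsg.Lie Module
open CF.Geom.E6 (wt)

/-- The weights of the module of dimension `27`. -/
def w27 : List (List ℤ) :=
  [[0, 0, 0, 0, 0, 1], [0, 0, 0, 0, 1, -1], [0, 0, 0, 1, -1, 0], [0, 1, 1, -1, 0, 0],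
  [0, -1, 1, 0, 0, 0], [1, 1, -1, 0, 0, 0], [1, -1, -1, 1, 0, 0], [-1, 1, 0, 0, 0, 0],
  [-1, -1, 0, 1, 0, 0], [1, 0, 0, -1, 1, 0], [-1, 0, 1, -1, 1, 0], [1, 0, 0, 0, -1, 1],
  [0, 0, -1, 0, 1, 0], [-1, 0, 1, 0, -1, 1], [1, 0, 0, 0, 0, -1], [0, 0, -1, 1, -1, 1],
  [-1, 0, 1, 0, 0, -1], [0, 1, 0, -1, 0, 1], [0, 0, -1, 1, 0, -1], [0, -1, 0, 0, 0, 1],
  [0, 1, 0, -1, 1, -1], [0, -1, 0, 0, 1, -1], [0, 1, 0, 0, -1, 0], [0, -1, 0, 1, -1, 0],
  [0, 0, 1, -1, 0, 0], [1, 0, -1, 0, 0, 0], [-1, 0, 0, 0, 0, 0]]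

/-- The adjugate of the Cartan matrix. -/
def adE6 : List (List ℤ) :=
  [[4, 3, 5, 6, 4, 2], [3, 6, 6, 9, 6, 3], [5, 6, 10, 12, 8, 4], [6, 9, 12, 18, 12, 6],
  [4, 6, 8, 12, 10, 5], [2, 3, 4, 6, 5, 4]]

theorem winv_w27 : WInv cE6 (wts 6 w27) := winv_wts carE6 (by decide +kernel)

theorem wts_w27 : wts 6 w27 = univ.val.map wt := by decide +kernel

theorem rat_E6 {m : ℕ} [NeZero m] {k : ℕ} {R : List ℕ → List ℤ → Bool}
    (h : allAlc [1, 2, 2, 3, 2, 1] m (trA adE6 3 fun s x => x.all (· % m == 0) ||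
      forceL (x.map (k * ·)) (hsL w27 m (32 ^ ·)) != hsL w27 m (32 ^ ·) x || R s x))
    {y : Fin 6 → ZMod m} (h0 : y ≠ 0) (e : ∃ w ∈ cE6.W, Mz cE6 m w *ᵥ y = k • y) :
    ∃ w ∈ cE6.W, ∃ (x : Fin 6 → ℤ) (s : Fin 6 → ℕ), Mz cE6 m w *ᵥ y = (fun i => (x i : ZMod m)) ∧
      (∀ i, pr cE6 x (cE6.vec (cE6.simple i)) = s i) ∧ R (List.ofFn s) (List.ofFn x) :=
  alcove_rat (C := cE6) carE6 71 (by decide +kernel) winv_w27 32 h h0 e

section

universe u

variable {K : Type u} [Field K] {G : Type*} [Group G] {ρ : StRep cE6 K G} (h : Univ ρ)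

/-- The module of dimension `27`. -/
def Rep (R : G →* End K (I27 → K)) : Prop := ∀ c a, R (h.r3.tor c) (Pi.single a 1) =
  ((∏ i, c i ^ wt a i : Kˣ) : K) • (Pi.single a 1 : I27 → K)

theorem exists_rep : ∃ R, Rep h R := by
  have h3 : (Geom.E6.st K).R3 := MinRep.r3_st _ K _
  have h4 := h3.tor_apply_of_diag (Units.coeHom _) wt fun i t => Geom.E6.rep.val_st_h_mat _ (by
    refine (congrArg₂ _ (Geom.E6.mono_mul ..) (Geom.E6.mono_mul ..)).trans
      ((Geom.E6.mono_sub (Geom.E6.wt_spec i)).trans ?_)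
    ext a b
    by_cases h : a = b <;> simp [Geom.E6.mono, h]) K t
  obtain ⟨σ, hσ⟩ := StRep.exists_hom_of_tor h.faith h.top h.r3 h3
    fun c hc => by rw [(injective_iff_map_eq_one _).1 h.inj c hc, map_one]
  refine ⟨(Matrix.toLinAlgEquiv' (R := K) (n := I27)).toMulEquiv.toMonoidHom.comp
    ((Units.coeHom _).comp σ), fun c a => ?_⟩
  have := h4 c
  rw [← show σ (h.r3.tor c) = h3.tor c from fh_tor (τ := .id K) hσ _ _ c] at this
  change Matrix.toLinAlgEquiv' (Units.coeHom _ _) _ = _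
  rw [this, toLinAlgEquiv'_apply, diagonal_mulVec_single, ← Pi.single_smul, smul_eq_mul]
  rfl

/-- The dimension of the fixed space. -/
noncomputable def fx (R : G →* End K (I27 → K)) (g : G) : ℕ := finrank K ((R g).eigenspace 1)

theorem fx_one (R : G →* End K (I27 → K)) : fx R 1 = 27 := by
  rw [fx, show (R 1).eigenspace 1 = ⊤ from eq_top_iff.2 fun v _ => by simp]
  simp

variable {h} {R : G →* End K (I27 → K)} (hR : Rep h R)
include hR

theorem Rep.eig [DecidableEq K] (g : G) (c : Fin 6 → Kˣ) (μ : K) :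
    finrank K ((R (g * h.r3.tor c * g⁻¹)).eigenspace μ) =
      #{a | ((∏ i, c i ^ wt a i : Kˣ) : K) = μ} :=
  finrank_eig ((Pi.basisFun K I27).map
    (LinearMap.GeneralLinearGroup.toLinearEquiv (R.toHomUnits g))) (fun a => by
      simp only [Basis.map_apply, Pi.basisFun_apply]
      change R _ (R g _) = _ • R g _
      rw [Classical.rep_conj_apply R rfl, hR, map_smul]) μ

theorem Rep.coord {m : ℕ} {V : Type*} {φ : V → G} {Y : V → Fin 6 → ZMod m} (H : Coord h φ Y) (v : V) :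
    fx R (φ v) = nz (wts 6 w27) (Y v) := by
  classical
  obtain ⟨g, ψ, h1, h2⟩ := H
  rw [fx, h2, hR.eig, wts_w27, nz, hs, Multiset.map_map, card_filter]
  refine sum_congr rfl fun a _ => if_congr ?_ rfl rfl
  rw [Units.val_eq_one, ← h1.eq_iff, ψ.map_zero_eq_one]
  simp only [← AddChar.map_zsmul_eq_zpow, zsmul_eq_mul, dz, mul_comm (Y v _)]
  exact Eq.congr_left
    (map_prod ψ.toMonoidHom (fun j => .ofAdd ((wt a j : ZMod m) * Y v j)) _).symm

variable {p : ℕ} [Fact p.Prime] [CharP K p] {X : Type*} [Group X] {f : X →* G} (E : In p h f)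
  (h2 : 2 ≠ p)
include E h2

theorem fx_two {x : X} (hx : x ^ 2 = 1) (h0 : x ≠ 1) : fx R (f x) = 15 ∨ fx R (f x) = 11 ∧
    ∃ (g : G) (ψ : AddChar (ZMod 2) Kˣ), Injective ψ ∧
      f x = g * h.r3.tor (fun i => ψ (![0, 0, 1, 0, 1, 0] i)) * g⁻¹ := by
  obtain ⟨Y, H⟩ := E.exists_coord ((Nat.coprime_primes Nat.prime_two Fact.out).2 h2) hx
  obtain ⟨w, hw, x, s, h3, -, h4⟩ := rat_E6 (m := 2) (k := 1) (R := fun _ x =>
    hsL w27 2 (fun j => if j = 0 then 1 else 0) x = 15 ∨ x = [2, 2, 3, 4, 3, 2])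
    (by decide +kernel) (y := Y 1) (fun e => h0 (E.inj (by simpa using H.zero_iff.1 e)))
    ⟨1, one_mem _, by simp [Mz_one]⟩
  have h5 := hR.coord (H.W hw) 1
  obtain ⟨g, ψ, h6, h7⟩ := H.W hw
  replace h7 := h7 1
  simp only [pow_one, h3] at h5 h7
  rw [decide_eq_true_eq, ← nz_wts, ← h5] at h4
  refine h4.imp_right fun e => ?_
  obtain rfl : x = ![2, 2, 3, 4, 3, 2] := List.ofFn_injective e
  exact ⟨h5.trans (by decide +kernel), g, ψ, h6, h7.trans (by
    congr 3; funext i; congr 1; revert i; decide)⟩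

theorem fx_conj {x y : X} (hx : x ^ 2 = 1) (e : IsConj x y) : fx R (f y) = fx R (f x) := by
  classical
  obtain ⟨g, c, -, h3⟩ := E.exists_tor (((Nat.coprime_primes Nat.prime_two Fact.out).2
    h2).coprime_dvd_left (orderOf_dvd_of_pow_eq_one hx))
  obtain ⟨u, rfl⟩ := isConj_iff.1 e
  rw [fx, fx, show f (u * x * u⁻¹) = f u * g * h.r3.tor c * (f u * g)⁻¹ by
    simp [h3, mul_assoc], h3, hR.eig, hR.eig]

theorem fx_ten (h5 : 5 ≠ p) {x y : X} (hx : x ^ 10 = 1) (h0 : x ≠ 1) (e : y * x * y⁻¹ = x ^ 7) :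
    (fx R (f (x ^ 5)) = 27 → fx R (f x) = 7) ∧
      (fx R (f (x ^ 5)) = 15 → fx R (f (x ^ 2)) = 7 → fx R (f x) = 3) := by
  obtain ⟨Y, H⟩ := E.exists_coord (m := 10) (((Nat.coprime_primes Nat.prime_two Fact.out).2
    h2).mul_left ((Nat.coprime_primes (by decide) Fact.out).2 h5)) hx
  obtain ⟨w, hw, h3⟩ := H.conj (f y)
  let n := fun k x => hsL w27 10 (fun j => if k * j % 10 = 0 then 1 else 0) x
  obtain ⟨w, hw, u, s, h3, -, h4⟩ := rat_E6 (m := 10) (k := 7) (R := fun _ x =>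
    (n 5 x = 27 → n 1 x = 7) ∧ (n 5 x = 15 → n 2 x = 7 → n 1 x = 3))
    (by decide +kernel) (y := Y 1) (fun e => h0 (E.inj (by simpa using H.zero_iff.1 e)))
    ⟨w, hw, (h3 1 7 (by simpa using congrArg f e)).trans (H.smul (by simp))⟩
  have h6 : ∀ k, fx R (f (x ^ k)) = n k (List.ofFn u) := fun k => by
    rw [hR.coord H, H.smul (a := 1) (k := k) (by simp), nz, ← winv_w27.hs hw, mulVec_smul, h3]
    refine Eq.trans ?_ (hs_wts ..)
    simp only [hs, dz_nsmul, ← Nat.dvd_iff_mod_eq_zero, ← ZMod.natCast_eq_zero_iff, Nat.cast_mul,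
      ZMod.natCast_zmod_val]
  rwa [decide_eq_true_eq, ← h6, ← h6, ← h6, pow_one] at h4

omit hR h2 in
theorem exists_chars [DecidableEq K] {A : Type*} [CommGroup A] (e : A →* X) {m : ℕ}
    (hm : m.Coprime p) (H : ∀ a : A, a ^ m = 1) :
    ∃ l : I27 → A →* Kˣ, ∀ a, fx R (f (e a)) = #{i | l i a = 1} := by
  have := E.big.1
  obtain ⟨b, l, h1⟩ := exists_eigb (I := I27) (R.comp (f.comp e)) (fun e => (Fact.out : p.Prime).ne_one
    (Nat.Coprime.eq_one_of_dvd hm.symm ((CharP.cast_eq_zero_iff K p m).1 e))) H (by simp)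
  exact ⟨l, fun a => (finrank_eig b (h1 a) 1).trans (by simp)⟩

variable [Finite X]

theorem card_two (A : Subgroup X) (H : ∀ a ∈ A, a ^ 2 = 1) : Nat.card A ∣ 2 ^ 8 * 3 := by
  classical
  have H' : ∀ a : A, a ^ 2 = 1 := fun a => Subtype.ext (H a a.2)
  let _ : CommGroup A := { (inferInstance : Group A) with
    mul_comm := Commute.of_orderOf_dvd_two fun a => orderOf_dvd_of_pow_eq_one (H' a) }
  have := Fintype.ofFinite A
  obtain ⟨l, hl⟩ := exists_chars (R := R) E A.subtype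
    ((Nat.coprime_primes Nat.prime_two Fact.out).2 h2) H'
  obtain ⟨k, hk⟩ := sum_two l H'
  obtain ⟨k', hk'⟩ := sum_two (fun i : I27 × I27 => l i.1 * l i.2) H'
  have h3 : ∀ a, 2 * #{i | l i a = 1} + #{i : I27 × I27 | (l i.1 * l i.2) a = 1} =
      399 + if a = 1 then 384 else 0 := fun a => by
    have h3 : ∀ i, l i a = 1 ∨ l i a = -1 := fun i => (Units.inv_eq_self_iff _).1
      (inv_eq_of_mul_eq_one_right (by rw [← map_mul, ← sq, H', map_one]))
    rw [show univ.filter (fun i : I27 × I27 => (l i.1 * l i.2) a = 1) =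
      (univ.filter (l · a = 1) ×ˢ univ.filter (l · a = 1)) ∪
      ((univ.filter (l · a = 1))ᶜ ×ˢ (univ.filter (l · a = 1))ᶜ) by
        ext ⟨i, j⟩
        rcases h3 i with e | e <;> rcases h3 j with e' | e' <;> simp [e, e', em],
      card_union_of_disjoint (disjoint_product.2 (.inl disjoint_compl_right)), card_product,
      card_product, card_compl, ← hl]
    split_ifs with e
    · simp [e, fx_one]
    · rcases fx_two hR E h2 (H a a.2) (fun e' => e (Subtype.ext e')) with e | ⟨e, -⟩ <;> simp [e]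
  have h4 := sum_congr rfl fun a (_ : a ∈ univ) => h3 a
  rw [sum_add_distrib, ← mul_sum, sum_add_distrib, sum_ite_eq', if_pos (mem_univ _), sum_const,
    card_univ, ← Nat.card_eq_fintype_card, smul_eq_mul, hk] at h4
  rw [← Nat.dvd_add_right (Dvd.intro 798 rfl), show Nat.card A * 798 + 2 ^ 8 * 3 =
    2 * (Nat.card A * 399 + 384) by ring, ← h4, mul_add, hk']
  exact dvd_add ((dvd_mul_right _ _).mul_left _) (dvd_mul_right _ _)

variable {φ : X →* alternatingGroup (Fin 12)} (hm : Min φ)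
include hm

theorem not_odd (H : ∀ x, φ x = 1 → (∃ k, x ^ 2 ^ k = 1) → x = 1) : False := by
  classical
  choose! σ h3 h4 using fun (s : ℕ) (h : ∃ x : X, x ^ 2 = 1 ∧ (φ x).1.support.card = s) => h
  have h5 : ∀ x, x ^ 2 = 1 → (φ x).1.support.card ≤ 10 →
      fx R (f x) = fx R (f (σ (φ x).1.support.card)) := fun x hx e =>
    (fx_conj hR E h2 hx (isConj_two H hm.surj hx (h3 _ ⟨x, hx, rfl⟩) (isConj_alt
      (by rw [← map_pow, hx, map_one]) (by rw [← map_pow, h3 _ ⟨x, hx, rfl⟩, map_one])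
      (h4 _ ⟨x, hx, rfl⟩).symm (by simpa using e)))).symm
  have h6 : ∀ {n} (g : Fin n → Perm (Fin 12)) (S : Multiset ℕ),
      ((∀ u v, hom2 g (u * v) = hom2 g u * hom2 g v) ∧ (∀ v, sign (hom2 g v) = 1) ∧
      (univ.val.map fun v => (hom2 g v).support.card) = S ∧ ∀ s ∈ S, s ≤ 10) →
      (∃ k, 2 * (S.map fun s => fx R (f (σ s))).sum = 2 ^ n * (27 + k)) ∧ ∀ s ∈ S, s ≠ 0 →
        fx R (f (σ s)) = 15 ∨ fx R (f (σ s)) = 11 := fun {n} g S ⟨h6, h7, h8, h9⟩ => by
    obtain ⟨e, he⟩ := lift_two H hm.surj (pow_ell (I := Fin n) (ℓ := 2))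
      ((MonoidHom.mk' (hom2 g) h6).codRestrict (alternatingGroup _) h7)
    have h10 : ∀ v, e v ^ 2 = 1 := fun v => by rw [← map_pow, pow_ell, map_one]
    obtain ⟨l, hl⟩ := exists_chars (R := R) E e
      ((Nat.coprime_primes Nat.prime_two Fact.out).2 h2) pow_ell
    obtain ⟨k, hk⟩ := sum_two l pow_ell
    subst h8
    refine ⟨⟨k, ?_⟩, fun s hs h0 => ?_⟩
    · rw [Multiset.map_map]
      convert hk using 2
      · exact sum_congr rfl fun v _ => by
          rw [← hl, h5 _ (h10 v) (h9 _ (Multiset.mem_map.2 ⟨v, mem_univ v, by rw [he]; rfl⟩)), he]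
          rfl
      all_goals simp
    · obtain ⟨v, -, hv⟩ := Multiset.mem_map.1 hs
      have h11 : ∃ x : X, x ^ 2 = 1 ∧ (φ x).1.support.card = s := ⟨e v, h10 v, by rw [he]; exact hv⟩
      exact (fx_two hR E h2 (h3 s h11) fun e => h0 (by rw [← h4 s h11, e]; simp)).imp_right And.left
  have h7 := h5 1 (one_pow 2) (by simp)
  rw [map_one, map_one, fx_one] at h7
  obtain ⟨⟨k, hk⟩, h8⟩ := h6 ![swap 0 1 * swap 2 3 * (swap 4 5 * swap 6 7),
    swap 0 2 * swap 1 3 * (swap 4 6 * swap 5 7), swap 0 4 * swap 1 5 * (swap 2 6 * swap 3 7)]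
    {0, 8, 8, 8, 8, 8, 8, 8} (by decide +kernel)
  obtain ⟨⟨k', hk'⟩, h9⟩ := h6 ![swap 0 1 * swap 2 3, swap 0 2 * swap 1 3, swap 4 5 * swap 6 7,
    swap 4 6 * swap 5 7] {0, 4, 4, 4, 4, 4, 4, 8, 8, 8, 8, 8, 8, 8, 8, 8} (by decide +kernel)
  have h10 := h8 8 (by decide) (by decide)
  have h11 := h9 4 (by decide) (by decide)
  simp at h7 hk hk'
  omega

variable (h3 : 3 ≠ p) (h5 : 5 ≠ p)
include h3 h5

theorem not_twelve : False := by
  classical
  have := E.big.1
  have := alternatingGroup.isSimpleGroup (α := Fin 12) (by simp)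
  have := alternatingGroup.isSimpleGroup (α := (Fin 2 × ZMod 5) ⊕ Fin 2) (by simp)
  obtain ⟨x, h6, ⟨k, hk⟩, h7⟩ : ∃ x, φ x = 1 ∧ (∃ k, x ^ 2 ^ k = 1) ∧ x ≠ 1 := by
    simpa only [not_forall, exists_prop] using show ¬ _ from not_odd hR E h2 hm
  obtain ⟨z, hz, h0, h1⟩ := exists_cen_two hm (card_two hR E h2) (not_sec_GL (t := 11) (by decide)
    (dvd_card_alt (by simp) (by simp; decide)) (by decide) (by decide)) h6 hk h7
  have hm' := hm.comp (Fintype.equivFinOfCardEq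
    (show Fintype.card ((Fin 2 × ZMod 5) ⊕ Fin 2) = 12 by simp)).symm.altCongrHom
  have h8 : 243 ∣ Nat.card (alternatingGroup ((Fin 2 × ZMod 5) ⊕ Fin 2)) :=
    dvd_card_alt (by simp) (by simp; decide)
  obtain ⟨e, -, he, h9⟩ := exists_mono (hm'.cen (ℓ := 5) (not_isPGroup (t := 3) (by decide)
    (by decide) (Dvd.dvd.trans (by decide) h8)) (E.rank h5 (a := 1)
      (by rw [show Nat.card cE6.W = _ from cardWE6]; decide))
    fun d hd e => by
      have := h8.trans e.card_dvd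
      rw [Matrix.card_GL_field, ZMod.card] at this
      exact (by decide +kernel : ∀ d ≤ 7, ¬ 243 ∣ ∏ i : Fin d, (5 ^ d - 5 ^ i.1)) d
        (by simpa using hd) this) hm'.surj (by decide) (by decide +kernel)
    fun i j hij => ⟨Pi.mulSingle i (-1), 1, by revert i j; decide +kernel⟩
  obtain ⟨y, hy⟩ := h9 1 (fun _ => ⟨2, 3, by decide, by decide⟩) 1 (by decide +kernel)
  have h10 : ∀ v, e v ^ 5 = 1 := fun v => by rw [← map_pow, pow_ell, map_one]
  have h11 : ∀ v, y * e v * y⁻¹ = e v ^ 7 := fun v => (hy _).trans (by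
    rw [← map_pow]; congr 1; revert v; decide +kernel)
  have h12 : ∀ v, v ≠ 1 → fx R (f (e v)) = 7 := fun v hv => (fx_ten hR E h2 h5
    (by rw [pow_mul _ 5 2, h10, one_pow]) (by simpa [he.eq_iff' (map_one e)] using hv)
    (h11 v)).1 (by rw [h10, map_one, fx_one])
  have hz' := mem_center_iff.1 hz
  rcases fx_two hR E h2 h1 h0 with h13 | ⟨-, g, ψ, hψ, h13⟩
  · let F : ℤˣ × Multiplicative (Fin 2 → ZMod 5) →* X :=
      .mk' (fun a => (if a.1 = 1 then 1 else z) * e a.2) fun ⟨a, u⟩ ⟨b, v⟩ => by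
        rcases Int.units_eq_one_or a with rfl | rfl <;> rcases Int.units_eq_one_or b with rfl | rfl
        <;> simp [← hz', mul_assoc, ← sq, h1]
    have h14 : ∀ a : ℤˣ × Multiplicative (Fin 2 → ZMod 5), a ^ 10 = 1 := by decide +kernel
    obtain ⟨l, hl⟩ := exists_chars (R := R) E F (m := 10) (((Nat.coprime_primes Nat.prime_two
      Fact.out).2 h2).mul_left ((Nat.coprime_primes (by decide) Fact.out).2 h5)) h14
    have h15 : ∀ a, #{i | l i a = 1} =
        if a.1 = 1 then if a.2 = 1 then 27 else 7 else if a.2 = 1 then 15 else 3 := fun ⟨a, v⟩ => by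
      rw [← hl]
      have c : Commute z (e v) := (hz' _).symm
      have e2 : (z * e v) ^ 2 = e (v ^ 2) := by rw [c.mul_pow, h1, one_mul, map_pow]
      split_ifs with h h' h' <;> simp only [F, MonoidHom.mk'_apply] at * <;>
        simp only [h, if_true, if_false, one_mul]
      · simp [h', fx_one]
      · exact h12 v h'
      · simp [h', h13]
      have h15 : v ^ 2 ≠ 1 := by clear c e2; revert v; decide +kernel
      refine (fx_ten hR E h2 h5 (y := y) (by
        rw [pow_mul _ 2 5, e2, h10]) (fun e => h15 (he (by rw [← e2, e]; simp))) ?_).2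
        (by rw [c.mul_pow, h10, pow_succ z, pow_mul z 2 2, h1]; simpa using h13) (e2 ▸ h12 _ h15)
      rw [← conj_mul, h11, hz', c.mul_pow, pow_succ z, pow_mul z 2 3, h1]
      simp
    have h16 := sum_ker l
    rw [sum_congr rfl fun a _ => h15 a, show ∑ a : ℤˣ × Multiplicative (Fin 2 → ZMod 5),
      (if a.1 = 1 then if a.2 = 1 then 27 else 7 else if a.2 = 1 then 15 else 3) = 282 by
        decide +kernel] at h16
    refine absurd (h16 ▸ dvd_sum fun i _ => ?_ : 5 ∣ 282) (by decide)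
    obtain ⟨d, ⟨d', h17⟩, h18⟩ := ker_card (l i) h14
    refine Nat.dvd_of_mul_dvd_mul_right (k := 10) (by decide) ⟨d', ?_⟩
    rw [show 5 * 10 = Nat.card (ℤˣ × Multiplicative (Fin 2 → ZMod 5)) by simp, ← h18, h17, mul_assoc]
  obtain ⟨r, hr, h14, h15⟩ : ∃ r : ℕ, r.Prime ∧ r ≠ p ∧ 7 ≤ r := by
    by_cases h : 7 = p
    exacts [⟨11, by decide, by omega, by decide⟩, ⟨7, by decide, h, by decide⟩]
  obtain ⟨u, hu⟩ := exists_orderOf (K := K) (n := r) fun e =>
    h14 ((Nat.prime_dvd_prime_iff_eq Fact.out hr).1 ((CharP.cast_eq_zero_iff K p r).1 e)).symm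
  let s : Fin 6 → ℤ := ![-2, 0, -1, 0, 1, 2]
  have h16 : ∀ x, Commute (f x) (g * h.r3.tor (fun i => u ^ s i) * g⁻¹) := fun x => by
    have H : TabOf cE6 tabE6 := tabOf certE6
    simpa [mul_assoc] using (cent_le h (c := fun i => ψ (![0, 0, 1, 0, 1, 0] i))
      (c' := fun i => u ^ s i) (isOfFinOrder_iff_pow_eq_one.2 ⟨2, two_pos, funext fun i => by
        rw [Pi.pow_apply, ← AddChar.map_nsmul_eq_pow, two_nsmul, CharTwo.add_self_eq_zero]
        exact ψ.map_zero_eq_one⟩) (fun r e => by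
        rw [rv_ψ, ← ψ.map_zero_eq_one, hψ.eq_iff] at e
        rw [rv_zp, show pr cE6 s (cE6.vec r) = 0 from ?_, zpow_zero]
        revert r
        simp only [pr_vec, H.car]
        decide +kernel) (g := g⁻¹ * f x * g) (by
        simpa [h13, mul_assoc] using (show Commute x z from hz' x).map
          ((MulAut.conj g⁻¹).toMonoidHom.comp f))).map (MulAut.conj g)
  set t := g * h.r3.tor (fun i => u ^ s i) * g⁻¹ with ht
  have h17 : finrank K ((R t).eigenspace (u ^ (2 : ℤ) : Kˣ)) = 10 := by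
    rw [ht, hR.eig, ← (by decide +kernel : #{a | ∑ i, s i * wt a i - 2 = 0} = 10)]
    refine congrArg _ (filter_congr fun a _ => ?_)
    simp only [← zpow_mul, ← zpow_sum', Units.val_inj]
    rw [zpow_eq_zpow_iff_modEq, hu, Int.modEq_comm, Int.modEq_iff_dvd]
    exact ⟨fun e => Int.eq_zero_of_abs_lt_dvd e (lt_of_lt_of_le (b := 7)
      ((by decide +kernel : ∀ a, |∑ i, s i * wt a i - 2| < 7) a) (by exact_mod_cast h15)), fun e => e ▸ dvd_zero _⟩
  have h18 := AltD.bd_of_min (by decide) 10 hm (ρ := Representation.subrepresentation (R.comp f) _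
    fun x v hv => End.mem_eigenspace_iff.2 (by
      change R t (R (f x) v) = _ • R (f x) v
      rw [← map_smul, ← End.mem_eigenspace_iff.1 hv, ← End.mul_apply, ← map_mul, ← (h16 x).eq,
        map_mul, End.mul_apply])) ⟨e (ofAdd 1), fun e => by
      have := Submodule.finrank_mono (show _ ≤ (R (f _)).eigenspace 1 from fun v hv =>
        End.mem_eigenspace_iff.2 ((congrArg Subtype.val (LinearMap.congr_fun e ⟨v, hv⟩)).trans
          (one_smul _ _).symm))
      rw [h17, ← fx, h12 _ (by decide)] at this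
      omega⟩ h17
  rw [AltD.Bd, CharP.cast_eq_zero_iff K p] at h18
  obtain ⟨h19, -⟩ := h18.resolve_left (by decide)
  rcases (Fact.out : p.Prime).dvd_mul.1 (show p ∣ 2 ^ 2 * 3 from h19) with h | h
  · exact h2 ((Nat.prime_dvd_prime_iff_eq Fact.out Nat.prime_two).1
      ((Fact.out : p.Prime).dvd_of_dvd_pow h)).symm
  · exact h3 ((Nat.prime_dvd_prime_iff_eq Fact.out Nat.prime_three).1 h).symm

end

theorem bound_E6 {π : Perm (Fin 6)} {p q z : ℕ} [Fact p.Prime] {Y : Type*} [Group Y]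
    (L : LS cE6 π p q z Y) {r : ℕ} (h : Sec (alternatingGroup (Fin r)) Y) :
    r ≤ 11 + (if p = 2 ∨ p = 3 ∨ p = 5 then 1 else 0) := by
  by_contra! hr
  split_ifs at hr with hp
  · obtain ⟨w, hw, v, h1, h2⟩ := eigz_of_sec L (h.alt (by simp; omega)) (ℓ := 11) (by omega)
      (by rw [show Nat.card cE6.W = _ from cardWE6]; decide) (k := 2)
      (exists_aff (by decide) (ZMod.unitOfCoprime 2 (by decide)) (swap (0 : Fin 2) 1)
        (by decide +kernel) rfl)
    obtain ⟨_, -, _, _, -, -, h⟩ := rat_E6 (R := fun _ _ => false) (by decide +kernel) h1 ⟨w, hw, h2⟩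
    simp at h
  · obtain ⟨X, φ, _, hm, E⟩ := exists_in L (h.alt (α := Fin 12) (by simp; omega))
    obtain ⟨R, hR⟩ := exists_rep L.h
    exact not_twelve hR E (by omega) hm (by omega) (by omega)

end CF.ExA
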